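import Cfsg.Agent.Lib.Srg77.Cocl
import Cfsg.Agent.S0410

/-!
# Uniqueness of the strongly regular graph with parameters (77, 16, 0, 4)

The 21-cocliques form the points of a Steiner system `S(3, 6, 22)`, whose blocks are the vertices.
-/

set_option autoImplicit false
set_option linter.unusedSectionVars false

namespace Cfsg.Agent.Lib.Srg77

open Finset

variable {V : Type*} [Fintype V] [DecidableEq V] {G : SimpleGraph V} [DecidableRel G.Adj]

theorem card_Coc (hG : G.IsSRGWith 77 16 0 4) : (Coc G).card = 22 := by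
  have h1 : ∑ C ∈ Coc G, C.card = ∑ x : V, ((Coc G).filter (x ∈ ·)).card := by
    simp only [Finset.card_eq_sum_ones]
    apply Finset.sum_comm'
    intro C x
    simp
  rw [Finset.sum_congr rfl (fun C hC => (mem_Coc.1 hC).1), Finset.sum_congr rfl (fun x _ => card_Coc_mem hG x)] at h1
  simp only [Finset.sum_const, Finset.card_univ, hG.card, smul_eq_mul] at h1
  omega

/-- The points: the cocliques of size 21. -/
abbrev Pt (G : SimpleGraph V) [DecidableRel G.Adj] := {C // C ∈ Coc G}

theorem card_Pt (hG : G.IsSRGWith 77 16 0 4) : Fintype.card (Pt G) = 22 := by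
  rw [Fintype.card_coe, card_Coc hG]

/-- The blocks: the cocliques through a vertex. -/
def bl (G : SimpleGraph V) [DecidableRel G.Adj] (y : V) : Finset (Pt G) := univ.filter fun C => y ∈ C.1

theorem mem_bl {y : V} {C : Pt G} : C ∈ bl G y ↔ y ∈ C.1 := by simp [bl]

theorem card_filter_coe (p : Finset V → Prop) [DecidablePred p] :
    (univ.filter fun C : Pt G => p C.1).card = ((Coc G).filter p).card := by
  apply Finset.card_bij (fun a _ => a.1)
  · intro a ha
    rw [mem_filter] at ha ⊢
    exact ⟨a.2, ha.2⟩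
  · intro a _ b _ h
    exact Subtype.ext h
  · intro b hb
    rw [mem_filter] at hb
    refine ⟨⟨b, hb.1⟩, ?_, rfl⟩
    rw [mem_filter]
    exact ⟨mem_univ _, hb.2⟩

theorem card_bl (hG : G.IsSRGWith 77 16 0 4) (y : V) : (bl G y).card = 6 := by
  rw [bl, card_filter_coe (fun C => y ∈ C)]
  exact card_Coc_mem hG y

theorem card_bl_inter (hG : G.IsSRGWith 77 16 0 4) {y z : V} (hz : z ∈ Lam G y) :
    (bl G y ∩ bl G z).card = 2 := by
  have h1 : bl G y ∩ bl G z = univ.filter fun C : Pt G => y ∈ C.1 ∧ z ∈ C.1 := by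
    ext C
    simp [mem_bl]
  rw [h1, card_filter_coe (fun C => y ∈ C ∧ z ∈ C), ← card_Coc_mem2 hG hz, Finset.filter_filter]

theorem disjoint_bl (hG : G.IsSRGWith 77 16 0 4) {y z : V} (h : G.Adj y z) : Disjoint (bl G y) (bl G z) := by
  rw [Finset.disjoint_left]
  intro C h1 h2
  exact (mem_Coc.1 C.2).2 y (mem_bl.1 h1) z (mem_bl.1 h2) h

theorem adj_iff_bl (hG : G.IsSRGWith 77 16 0 4) {y z : V} : G.Adj y z ↔ y ≠ z ∧ Disjoint (bl G y) (bl G z) := by
  constructor
  · intro h
    exact ⟨h.ne, disjoint_bl hG h⟩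
  · rintro ⟨h1, h2⟩
    by_contra h3
    have h4 := card_bl_inter hG (mem_Lam.2 ⟨h1.symm, h3⟩)
    rw [Finset.disjoint_iff_inter_eq_empty.1 h2] at h4
    simp at h4

theorem card_inter_le (hG : G.IsSRGWith 77 16 0 4) {y z : V} (h : y ≠ z) : (bl G y ∩ bl G z).card ≤ 2 := by
  by_cases h3 : G.Adj y z
  · rw [Finset.disjoint_iff_inter_eq_empty.1 (disjoint_bl hG h3)]
    simp
  · rw [card_bl_inter hG (mem_Lam.2 ⟨h.symm, h3⟩)]

theorem bl_inj (hG : G.IsSRGWith 77 16 0 4) : Function.Injective (bl G) := by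
  intro y z h
  by_contra hne
  have h1 := card_inter_le hG hne
  rw [h, Finset.inter_self, card_bl hG] at h1
  omega

theorem steiner (hG : G.IsSRGWith 77 16 0 4) : Cfsg.IsSteinerSystem 3 6 (Set.range (bl G)) := by
  refine ⟨?_, ?_⟩
  · rintro _ ⟨y, rfl⟩
    exact card_bl hG y
  have hall : ∀ s : Finset (Pt G), s.card = 3 → ∃ y, s ⊆ bl G y := by
    have hU : ((univ : Finset V).biUnion fun y => powersetCard 3 (bl G y)).card = 1540 := by
      rw [Finset.card_biUnion]
      · simp only [card_powersetCard, card_bl hG, Finset.sum_const, Finset.card_univ, hG.card, smul_eq_mul]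
        rfl
      · intro y _ z _ hne
        show Disjoint (powersetCard 3 (bl G y)) (powersetCard 3 (bl G z))
        rw [Finset.disjoint_left]
        intro s h1 h2
        rw [mem_powersetCard] at h1 h2
        have h3 : s ⊆ bl G y ∩ bl G z := Finset.subset_inter h1.1 h2.1
        have h4 := Finset.card_le_card h3
        have h5 := card_inter_le hG hne
        omega
    have hT : (powersetCard 3 (univ : Finset (Pt G))).card = 1540 := by
      rw [card_powersetCard, Finset.card_univ, card_Pt hG]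
      rfl
    have hEq : ((univ : Finset V).biUnion fun y => powersetCard 3 (bl G y)) = powersetCard 3 univ := by
      apply Finset.eq_of_subset_of_card_le
      · intro s hs
        obtain ⟨y, _, hy⟩ := mem_biUnion.1 hs
        rw [mem_powersetCard] at hy ⊢
        exact ⟨subset_univ _, hy.2⟩
      · rw [hU, hT]
    intro s hs
    have h1 : s ∈ powersetCard 3 (univ : Finset (Pt G)) := by
      rw [mem_powersetCard]
      exact ⟨subset_univ _, hs⟩
    rw [← hEq] at h1
    obtain ⟨y, _, hy⟩ := mem_biUnion.1 h1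
    exact ⟨y, (mem_powersetCard.1 hy).1⟩
  intro s hs
  obtain ⟨y, hy⟩ := hall s hs
  refine ⟨bl G y, ⟨⟨y, rfl⟩, hy⟩, ?_⟩
  rintro _ ⟨⟨z, rfl⟩, hz⟩
  by_contra hne
  have hne' : y ≠ z := by
    rintro rfl
    exact hne rfl
  have h3 : s ⊆ bl G y ∩ bl G z := Finset.subset_inter hy hz
  have h4 := Finset.card_le_card h3
  have h5 := card_inter_le hG hne'
  omega

theorem srg_iso {W : Type*} [Fintype W] [DecidableEq W] {H : SimpleGraph W} [DecidableRel H.Adj]
    (hG : G.IsSRGWith 77 16 0 4) (hH : H.IsSRGWith 77 16 0 4) : Nonempty (G ≃g H) := by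
  obtain ⟨e, he⟩ := Cfsg.Agent.S0410.result (card_Pt hG) (card_Pt hH) (steiner hG) (steiner hH)
  have h1 : ∀ y, ∃ w, bl H w = (bl G y).image e := by
    intro y
    have : (bl G y).image e ∈ Set.range (bl H) := by
      rw [← he]
      exact ⟨_, ⟨y, rfl⟩, rfl⟩
    exact this
  choose f hf using h1
  have finj : Function.Injective f := fun y z h =>
    bl_inj hG (Finset.image_injective e.injective (by rw [← hf, ← hf, h]))
  have fbij : Function.Bijective f :=
    (Fintype.bijective_iff_injective_and_card f).2 ⟨finj, by rw [hG.card, hH.card]⟩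
  refine ⟨⟨Equiv.ofBijective f fbij, ?_⟩⟩
  intro a b
  show H.Adj (f a) (f b) ↔ G.Adj a b
  rw [adj_iff_bl hH, adj_iff_bl hG, hf, hf, Finset.disjoint_image e.injective, finj.ne_iff]

end Cfsg.Agent.Lib.Srg77
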